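import Cfsg.Agent.H165.RV.HexCrit
import Cfsg.Agent.Cit.HexD4

/-!
# The `2`-rank of `³D₄(q)`, `q` odd, is at most `3` (helper400, for S5719)
-/

set_option autoImplicit false

namespace Cfsg.Agent.H400.IFD

open Cfsg Cfsg.Agent.Cit.HexBase Cfsg.Agent.H165.RV.Hex

/-- a group of exponent two of order more than `8` has order at least `16` -/
theorem sixteen_le {G : Type*} [Group G] [Finite G] {A : Subgroup G} (hA : ∀ a ∈ A, a ^ 2 = 1)
    (h : ¬ Nat.card A ≤ 2 ^ 3) : 16 ≤ Nat.card A := by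
  have hp : IsPGroup 2 A := fun a => ⟨1, by
    rw [pow_one]
    exact Subtype.ext (hA a a.2)⟩
  obtain ⟨n, hn⟩ := IsPGroup.iff_card.mp hp
  rw [hn] at h ⊢
  have h1 : 4 ≤ n := by
    by_contra h2
    exact h (Nat.pow_le_pow_right (by norm_num) (by omega))
  exact Nat.pow_le_pow_right (n := 2) (by norm_num) h1

/-- the groups with a `HexGrp` structure in odd characteristic (`G₂(q)`, `³D₄(q)`) -/
theorem rank_hex {E : Type*} [Field E] [Finite E] {σ : E ≃+* E} {L : Type*} [Group L] [Finite L] (c : HexGrp σ L)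
    (h2 : (2 : E) ≠ 0) : PRankLE 2 3 L := by
  intro A _ hA2
  by_contra h
  refine CenP.no_sixteen (F1 := E) (F4 := ↥(fx σ)) (fun t ht h1 => ?_) h2 (fun h0 => h2 (congrArg Subtype.val h0))
    (E := A) (fun x hx => by rw [← pow_two]; exact hA2 x hx) (sixteen_le hA2 h)
  obtain ⟨g, hg⟩ := isConj_iff.mp (c.isConj_z h2 ht h1).symm
  rw [← hg]
  exact ⟨(ofHex c h2).conj g⟩

/-- **the `2`-rank of `³D₄(q)`, `q` odd** -/
theorem rank_d4 {K : Type*} [Field K] [Fintype K] {q : ℕ} (hq : Odd q) (hK : Fintype.card K = q ^ 3) :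
    PRankLE 2 3 ↥(Lie.twistedD4 K q) := by
  obtain ⟨σ, -, ⟨c⟩⟩ := Cfsg.Agent.Cit.HexD4.exists_d4 hK
  refine rank_hex c ?_
  intro h2
  have h1 : ((2 : ℕ) : K) = 0 := by exact_mod_cast h2
  have h3 : ringChar K ∣ 2 := (ringChar.spec K 2).1 h1
  have h4 := CharP.ringChar_of_prime_eq_zero Nat.prime_two h1
  have h5 : 2 ∣ Fintype.card K := by
    rw [← h4]
    exact FiniteField.card K (ringChar K) |>.elim fun n hn => by rw [hn.2]; exact dvd_pow_self _ n.2.ne'
  rw [hK] at h5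
  have h6 := Nat.prime_two.dvd_of_dvd_pow h5
  exact (Nat.not_even_iff_odd.2 hq) (even_iff_two_dvd.2 h6)

end Cfsg.Agent.H400.IFD
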